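import Cfsg.Agent.H970.K4.AltSmall
import Cfsg.Agent.H821.K547.Defs
import Cfsg.Agent.S2119

/-!
# S4547, task 5022: invariant good characters of the alternating groups (helper699)

* `PermGood3 n` : three good characters of `A_n` which are restrictions of characters of `S_n`;
* `permGood3` : `7 ≤ n → PermGood3 n`;
* `ginv3_alt` : `GInv3 τ` for every automorphism `τ` of `A_n`, `7 ≤ n`.
-/

set_option autoImplicit false

namespace Cfsg.Agent.H699.K547

open Finset Cfsg Cfsg.Agent.H614 Cfsg.Agent.Characters.Core Cfsg.Agent.H600.AltDeg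
open Cfsg.Agent.H601.K4 Cfsg.Agent.H970.K4 Cfsg.Agent.H821.K547
open scoped ComplexConjugate

/-- three good characters of `A_n` which are restrictions of characters of `S_n` -/
def PermGood3 (n : ℕ) : Prop :=
  ∃ χ : Fin 3 → Equiv.Perm (Fin n) → ℂ,
    Function.Injective (fun i (a : alternatingGroup (Fin n)) => χ i a) ∧
    ∀ i, IsIrrCharacter (Equiv.Perm (Fin n)) (χ i) ∧ Good (fun a : alternatingGroup (Fin n) => χ i a)

theorem permGood3_of_triples {n : ℕ} (hn : 5 ≤ n) (t : Fin 3 → ℕ × ℕ × ℕ × ℕ)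
    (h : ∀ i, (t i).1 < (t i).2.1 ∧ (t i).2.1 < (t i).2.2.1 ∧ (t i).1 + (t i).2.1 + (t i).2.2.1 = n + 3 ∧
      (t i).2.2.2 * ((t i).1.factorial * (t i).2.1.factorial * (t i).2.2.1.factorial) =
        n.factorial * (((t i).2.1 - (t i).1) * ((t i).2.2.1 - (t i).1) * ((t i).2.2.1 - (t i).2.1)) ∧
      (t i).2.2.2 % 2 = 1)
    (hinj : ∀ i j, (t i).2.2.2 = (t j).2.2.2 → i = j) : PermGood3 n := by
  classical
  have : Nontrivial (Fin n) := Fin.nontrivial_iff_two_le.2 (by omega)
  let χ : Fin 3 → Equiv.Perm (Fin n) → ℂ := fun i => ch (Fin n) ![(t i).1, (t i).2.1, (t i).2.2.1]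
  have hdeg : ∀ i, χ i 1 = ((t i).2.2.2 : ℂ) := fun i => by
    obtain ⟨h1, h2, h3, h4, -⟩ := h i
    show ch (Fin n) ![(t i).1, (t i).2.1, (t i).2.2.1] 1 = _
    rw [ch_apply, ty_one, Fintype.card_fin, FM_three h1 h2 h3 h4]
    exact Int.cast_natCast _
  have hodd : ∀ i, OddIrr (χ i) := fun i => by
    obtain ⟨h1, h2, h3, h4, h5⟩ := h i
    refine ⟨isIrr_ch (strictMono_three h1 h2) (by rw [Fintype.card_fin]; exact sum_three h3), ?_⟩
    rw [charDegree_eq_of (hdeg i)]
    omega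
  refine ⟨χ, fun i j hij => ?_, fun i => ⟨(hodd i).1,
    good_alt hn (res _ alternatingGroup.index_eq_two (hodd i))⟩⟩
  have h1 := congrFun hij 1
  simp only [OneMemClass.coe_one, hdeg] at h1
  exact hinj i j (by exact_mod_cast h1)

theorem permGood3_of_fours {n : ℕ} (hn : 5 ≤ n) (t : Fin 3 → ℕ × ℕ × ℕ × ℕ × ℕ)
    (h : ∀ i, (t i).1 < (t i).2.1 ∧ (t i).2.1 < (t i).2.2.1 ∧ (t i).2.2.1 < (t i).2.2.2.1 ∧
      (t i).1 + (t i).2.1 + (t i).2.2.1 + (t i).2.2.2.1 = n + 6 ∧
      (t i).2.2.2.2 * ((t i).1.factorial * (t i).2.1.factorial * (t i).2.2.1.factorial * (t i).2.2.2.1.factorial) =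
        n.factorial * (((t i).2.1 - (t i).1) * ((t i).2.2.1 - (t i).1) * ((t i).2.2.2.1 - (t i).1) *
          ((t i).2.2.1 - (t i).2.1) * ((t i).2.2.2.1 - (t i).2.1) * ((t i).2.2.2.1 - (t i).2.2.1)) ∧
      (t i).2.2.2.2 % 2 = 1)
    (hinj : ∀ i j, (t i).2.2.2.2 = (t j).2.2.2.2 → i = j) : PermGood3 n := by
  classical
  have : Nontrivial (Fin n) := Fin.nontrivial_iff_two_le.2 (by omega)
  let χ : Fin 3 → Equiv.Perm (Fin n) → ℂ := fun i =>
    ch (Fin n) ![(t i).1, (t i).2.1, (t i).2.2.1, (t i).2.2.2.1]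
  have hdeg : ∀ i, χ i 1 = ((t i).2.2.2.2 : ℂ) := fun i => by
    obtain ⟨h1, h2, h3, h4, h5, -⟩ := h i
    show ch (Fin n) ![(t i).1, (t i).2.1, (t i).2.2.1, (t i).2.2.2.1] 1 = _
    rw [ch_apply, ty_one, Fintype.card_fin, FM_four h1 h2 h3 h4 h5]
    exact Int.cast_natCast _
  have hodd : ∀ i, OddIrr (χ i) := fun i => by
    obtain ⟨h1, h2, h3, h4, h5, h6⟩ := h i
    refine ⟨isIrr_ch (strictMono_four h1 h2 h3) (by rw [Fintype.card_fin]; simp [Fin.sum_univ_four]; omega), ?_⟩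
    rw [charDegree_eq_of (hdeg i)]
    omega
  refine ⟨χ, fun i j hij => ?_, fun i => ⟨(hodd i).1,
    good_alt hn (res _ alternatingGroup.index_eq_two (hodd i))⟩⟩
  have h1 := congrFun hij 1
  simp only [OneMemClass.coe_one, hdeg] at h1
  exact hinj i j (by exact_mod_cast h1)

theorem permGood3_of_finset {n : ℕ} (s : Finset (alternatingGroup (Fin n) → ℂ)) (hs : 3 ≤ s.card)
    (h : ∀ θ ∈ s, Good θ ∧ ∃ χ : Equiv.Perm (Fin n) → ℂ, IsIrrCharacter (Equiv.Perm (Fin n)) χ ∧
      (fun a : alternatingGroup (Fin n) => χ a) = θ) : PermGood3 n := by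
  classical
  obtain ⟨t, ht, hc⟩ := Finset.exists_subset_card_eq hs
  have e : Fin 3 ≃ t := (Fintype.equivFinOfCardEq (by rw [Fintype.card_coe, hc])).symm
  choose hg χ hχ1 hχ2 using h
  have key : (fun i (a : alternatingGroup (Fin n)) => χ (e i : alternatingGroup (Fin n) → ℂ) (ht (e i).2) a) =
      fun i => (e i : alternatingGroup (Fin n) → ℂ) := funext fun i => hχ2 _ _
  refine ⟨fun i => χ (e i : alternatingGroup (Fin n) → ℂ) (ht (e i).2), ?_, fun i => ⟨hχ1 _ _, ?_⟩⟩
  · rw [key]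
    exact fun i j hij => e.injective (Subtype.ext hij)
  · have h1 := hg _ (ht (e i).2)
    rw [← hχ2 _ (ht (e i).2)] at h1
    exact h1

theorem permGood3_large {n : ℕ} (hn : 16 ≤ n) : PermGood3 n := by
  classical
  have : Nontrivial (Fin n) := Fin.nontrivial_iff_two_le.2 (by omega)
  obtain ⟨N, k, r, hNk, hN, hr, rfl⟩ : ∃ N k r : ℕ, N = 2 ^ k ∧ 16 ≤ N ∧ r < N ∧ n = N + r := by
    refine ⟨2 ^ Nat.log 2 n, Nat.log 2 n, n - 2 ^ Nat.log 2 n, rfl, ?_, ?_, ?_⟩
    · have h1 : 4 ≤ Nat.log 2 n := (Nat.le_log_iff_pow_le (by norm_num) (by omega)).2 (by omega)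
      calc 16 = 2 ^ 4 := rfl
        _ ≤ _ := Nat.pow_le_pow_right (by norm_num) h1
    · have h1 := Nat.lt_pow_succ_log_self (b := 2) (by norm_num) n
      rw [pow_succ] at h1
      omega
    · have h1 := Nat.pow_log_le_self 2 (x := n) (by omega)
      omega
  let X := {x : Fin 11 // (x : ℕ) = 10 ∨ r + 10 ≠ N + x}
  have hX : 9 ≤ Fintype.card X := by
    have h1 : Fintype.card {x : Fin 11 // ¬ ((x : ℕ) = 10 ∨ r + 10 ≠ N + x)} ≤ 1 := by
      rw [Fintype.card_le_one_iff]
      rintro ⟨a, ha⟩ ⟨b, hb⟩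
      apply Subtype.ext
      apply Fin.ext
      push Not at ha hb
      simp only
      omega
    have h2 := Fintype.card_subtype_compl (fun x : Fin 11 => (x : ℕ) = 10 ∨ r + 10 ≠ N + x)
    rw [Fintype.card_fin] at h2
    have h3 : Fintype.card X ≤ 11 := by
      have := Fintype.card_subtype_le (fun x : Fin 11 => (x : ℕ) = 10 ∨ r + 10 ≠ N + x)
      rwa [Fintype.card_fin] at this
    show 9 ≤ Fintype.card {x : Fin 11 // (x : ℕ) = 10 ∨ r + 10 ≠ N + x}
    omega
  let χ : X → Equiv.Perm (Fin (N + r)) → ℂ := fun x => ch (Fin (N + r)) (gb r N x.1)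
  have hinj : Function.Injective χ := by
    intro x y hxy
    apply Subtype.ext
    exact gb_injective hN (ch_inj (gb_strictMono hN x.2) (gb_strictMono hN y.2)
      (by rw [Fintype.card_fin]; exact sum_gb r N x.1) hxy)
  have h : ∀ x, OddIrr (χ x) := fun x => oddIrr_gb hNk hN hr x.2
  have hr' : ∀ x g, conj (χ x g) = χ x g := fun x g => conj_ch _ g
  let f : X → alternatingGroup (Fin (N + r)) → ℂ := fun i a => χ i a
  have hI : (alternatingGroup (Fin (N + r))).index = 2 := alternatingGroup.index_eq_two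
  refine permGood3_of_finset (Finset.univ.image f) ?_ ?_
  · have h1 : (Finset.univ : Finset X).card ≤ 2 * (Finset.univ.image f).card := by
      refine Finset.card_le_mul_card_image (Finset.univ : Finset X) 2 ?_
      intro b _
      by_contra hcon
      push Not at hcon
      obtain ⟨i, hi, j, hj, k, hk, hij, hik, hjk⟩ := Finset.two_lt_card.1 hcon
      simp only [Finset.mem_filter, Finset.mem_univ, true_and] at hi hj hk
      exact hjk (hinj (fiber _ hI (h i) (h j) (h k) (fun e => hij (hinj e)) (fun e => hik (hinj e)) (hr' i) (hr' j)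
        (hr' k) (hi.trans hj.symm) (hi.trans hk.symm)))
    rw [Finset.card_univ] at h1
    omega
  · intro θ hθ
    obtain ⟨i, -, rfl⟩ := Finset.mem_image.1 hθ
    exact ⟨good_alt (by omega) (res _ hI (h i)), χ i, (h i).1, rfl⟩

theorem permGood3 {n : ℕ} (hn : 7 ≤ n) : PermGood3 n := by
  by_cases h : 16 ≤ n
  · exact permGood3_large h
  · have h1 : n = 7 ∨ n = 8 ∨ n = 9 ∨ n = 10 ∨ n = 11 ∨ n = 12 ∨ n = 13 ∨ n = 14 ∨ n = 15 := by omega
    rcases h1 with rfl | rfl | rfl | rfl | rfl | rfl | rfl | rfl | rfl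
    · exact permGood3_of_triples (by norm_num) ![(0, 1, 9, 1), (1, 2, 7, 15), (1, 4, 5, 21)]
        (by decide +kernel) (by decide +kernel)
    · exact permGood3_of_fours (by norm_num) ![(0, 1, 2, 11, 1), (0, 1, 3, 10, 7), (0, 2, 3, 9, 21)]
        (by decide +kernel) (by decide +kernel)
    · exact permGood3_of_fours (by norm_num) ![(0, 1, 2, 12, 1), (0, 1, 4, 10, 27), (0, 2, 4, 9, 105)]
        (by decide +kernel) (by decide +kernel)
    · exact permGood3_of_triples (by norm_num) ![(0, 1, 12, 1), (0, 2, 11, 9), (0, 3, 10, 35)]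
        (by decide +kernel) (by decide +kernel)
    · exact permGood3_of_triples (by norm_num) ![(0, 1, 13, 1), (1, 2, 11, 45), (0, 5, 9, 165)]
        (by decide +kernel) (by decide +kernel)
    · exact permGood3_of_triples (by norm_num) ![(0, 1, 14, 1), (0, 2, 13, 11), (1, 2, 12, 55)]
        (by decide +kernel) (by decide +kernel)
    · exact permGood3_of_triples (by norm_num) ![(0, 1, 15, 1), (0, 3, 13, 65), (0, 5, 11, 429)]
        (by decide +kernel) (by decide +kernel)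
    · exact permGood3_of_triples (by norm_num) ![(0, 1, 16, 1), (0, 2, 15, 13), (0, 3, 14, 77)]
        (by decide +kernel) (by decide +kernel)
    · exact permGood3_of_triples (by norm_num) ![(0, 1, 17, 1), (1, 2, 15, 91), (1, 3, 14, 715)]
        (by decide +kernel) (by decide +kernel)

/-- every automorphism of `A_n` is conjugation by a permutation -/
theorem exists_perm {n : ℕ} (hn : 7 ≤ n) (τ : MulAut (alternatingGroup (Fin n))) :
    ∃ t : Equiv.Perm (Fin n), ∀ a : alternatingGroup (Fin n), ((τ a : alternatingGroup (Fin n)) : Equiv.Perm (Fin n)) = t * a * t⁻¹ := by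
  obtain ⟨t, ht⟩ := (S2119.result n (by omega) (by omega)).surjective τ
  refine ⟨t, fun a => ?_⟩
  rw [← ht, MulAut.conjNormal_apply]

/-- the automorphisms of `A_n` have three invariant good characters -/
theorem ginv3_alt {n : ℕ} (hn : 7 ≤ n) (τ : MulAut (alternatingGroup (Fin n))) : GInv3 τ := by
  obtain ⟨χ, h1, h2⟩ := permGood3 hn
  obtain ⟨t, ht⟩ := exists_perm hn τ
  refine ⟨fun i a => χ i a, h1, fun i => ⟨(h2 i).2, fun a => ?_⟩⟩
  show χ i _ = χ i _
  rw [ht]
  exact isIrr_isClassFunction (h2 i).1 _ t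

end Cfsg.Agent.H699.K547
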